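import Mathlib
import Cfsg.Agent.H553.SympAll

/-!
# Orders of solvable irreducible symplectic groups

`HH` : the bound for `e² |G : E|`.
`sr_bound`: `p ^ (2 n) |S| ≤ HH (p ^ n)` for a solvable irreducible symplectic group.
-/

set_option autoImplicit false

namespace Cfsg.Agent.H558.CP

open Module Subgroup Cfsg.Agent.H553.Sy Cfsg.Agent.H553

universe u

/-- the bound for `e² |G : E|` -/
def HH : ℕ → ℕ
  | 0 => 1
  | 1 => 1
  | 2 => 24
  | 3 => 216
  | 4 => 1920
  | n + 5 => 5 * 11 ^ (n + 3)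

theorem HH_five_le {n : ℕ} (hn : 5 ≤ n) : HH n = 5 * 11 ^ (n - 2) := by
  obtain ⟨m, rfl⟩ := Nat.exists_eq_add_of_le' hn
  rfl

theorem HH_pos (n : ℕ) : 1 ≤ HH n := by
  rcases n with _ | _ | _ | _ | _ | n
  · norm_num [HH]
  · norm_num [HH]
  · norm_num [HH]
  · norm_num [HH]
  · norm_num [HH]
  · simp only [HH]
    have : 1 ≤ 11 ^ (n + 3) := Nat.one_le_pow _ _ (by norm_num)
    omega

theorem HH_le {n : ℕ} (hn : 2 ≤ n) : HH n ≤ 24 * 11 ^ (n - 2) := by
  rcases n with _ | _ | _ | _ | _ | n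
  · omega
  · omega
  · norm_num [HH]
  · norm_num [HH]
  · norm_num [HH]
  · simp only [HH]
    have : n + 1 + 1 + 1 + 1 + 1 - 2 = n + 3 := by omega
    rw [this]
    omega

theorem HH_mul {a b : ℕ} (ha : 1 ≤ a) (hb : 1 ≤ b) : HH a * HH b ≤ HH (a * b) := by
  rcases Nat.lt_or_ge a 2 with h1 | h1
  · have : a = 1 := by omega
    subst this
    simp [HH]
  rcases Nat.lt_or_ge b 2 with h2 | h2
  · have : b = 1 := by omega
    subst this
    simp [HH]
  by_cases h22 : a = 2 ∧ b = 2
  · obtain ⟨rfl, rfl⟩ := h22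
    norm_num [HH]
  have h3 : 5 ≤ a * b := by
    rcases Nat.lt_or_ge a 3 with h | h
    · have : a = 2 := by omega
      subst this
      omega
    · nlinarith
  rw [HH_five_le h3]
  obtain ⟨x, rfl⟩ := Nat.exists_eq_add_of_le' h1
  obtain ⟨y, rfl⟩ := Nat.exists_eq_add_of_le' h2
  have h4 : 2 ≤ (x + 1) * (y + 1) := by
    by_contra hcon
    push Not at hcon
    have h5 : x = 0 := by
      by_contra h
      have : 1 ≤ x := by omega
      nlinarith
    have h6 : y = 0 := by
      by_contra h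
      have : 1 ≤ y := by omega
      nlinarith
    omega
  calc HH (x + 2) * HH (y + 2) ≤ (24 * 11 ^ x) * (24 * 11 ^ y) :=
        Nat.mul_le_mul (HH_le h1) (HH_le h2)
    _ = 576 * 11 ^ (x + y) := by rw [pow_add]; ring
    _ ≤ (5 * 11 ^ 3) * 11 ^ (x + y) := Nat.mul_le_mul_right _ (by norm_num)
    _ = 5 * 11 ^ (x + y + 3) := by ring
    _ ≤ 5 * 11 ^ ((x + 2) * (y + 2) - 2) := by
        apply Nat.mul_le_mul_left
        apply Nat.pow_le_pow_right (by norm_num)
        have : (x + 2) * (y + 2) = (x + 1) * (y + 1) + (x + y + 3) := by ring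
        omega

theorem three_pow_le {q : ℕ} (hq : 5 ≤ q) : q ^ 2 * 3 ^ (q - 1) ≤ 5 * 11 ^ (q - 2) := by
  induction q, hq using Nat.le_induction with
  | base => norm_num
  | succ m hm ih =>
    have h1 : m + 1 - 1 = (m - 1) + 1 := by omega
    have h2 : m + 1 - 2 = (m - 2) + 1 := by omega
    rw [h1, h2, pow_succ, pow_succ]
    have h3 : (m + 1) ^ 2 * 3 ≤ 11 * m ^ 2 := by nlinarith
    calc (m + 1) ^ 2 * (3 ^ (m - 1) * 3) = ((m + 1) ^ 2 * 3) * 3 ^ (m - 1) := by ring
      _ ≤ (11 * m ^ 2) * 3 ^ (m - 1) := Nat.mul_le_mul_right _ h3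
      _ = 11 * (m ^ 2 * 3 ^ (m - 1)) := by ring
      _ ≤ 11 * (5 * 11 ^ (m - 2)) := Nat.mul_le_mul_left _ ih
      _ = _ := by ring

theorem five_pow_le {q : ℕ} (hq : 5 ≤ q) : q ^ 5 ≤ 5 * 11 ^ (q - 2) := by
  induction q, hq using Nat.le_induction with
  | base => norm_num
  | succ m hm ih =>
    have h2 : m + 1 - 2 = (m - 2) + 1 := by omega
    rw [h2, pow_succ 11]
    have h3 : (m + 1) ^ 5 ≤ 11 * m ^ 5 := by
      have h4 : m + 1 ≤ 2 * m := by omega
      have h5 : 5 * (m + 1) ≤ 6 * m := by omega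
      have h6 : (5 * (m + 1)) ^ 5 ≤ (6 * m) ^ 5 := Nat.pow_le_pow_left h5 5
      rw [mul_pow, mul_pow] at h6
      omega
    calc (m + 1) ^ 5 ≤ 11 * m ^ 5 := h3
      _ ≤ 11 * (5 * 11 ^ (m - 2)) := Nat.mul_le_mul_left _ ih
      _ = _ := by ring

/-- A solvable subgroup of `S_6` has order at most 120. -/
theorem perm_six {S : Type*} [Group S] [Finite S] [Group.IsSolvable S]
    (f : S →* Equiv.Perm (Fin 6)) (hf : Function.Injective f) :
    Nat.card S ∣ 720 ∧ Nat.card S ≤ 120 := by
  classical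
  set R := f.range with hR
  have hRc : Nat.card R = Nat.card S := (Nat.card_congr (MonoidHom.ofInjective hf).toEquiv).symm
  have hRs : Group.IsSolvable R := Group.isSolvable_of_surjective f.rangeRestrict_surjective
  have h720 : Nat.card (Equiv.Perm (Fin 6)) = 720 := by
    rw [Nat.card_perm, Nat.card_fin]
    rfl
  have hdvd : Nat.card S ∣ 720 := by
    rw [← hRc, ← h720]
    exact Subgroup.card_subgroup_dvd_card R
  refine ⟨hdvd, ?_⟩
  by_contra hlt
  push Not at hlt
  have hidx := Subgroup.card_mul_index R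
  rw [hRc, h720] at hidx
  have hi5 : R.index ≤ 5 := by
    by_contra h
    push Not at h
    have := Nat.mul_le_mul hlt.le h
    nlinarith
  set X := alternatingGroup (Fin 6) with hX
  have hXs : IsSimpleGroup X := alternatingGroup.isSimpleGroup (by simp)
  have hXc : Nat.card X = 360 := by
    have h1 := two_mul_nat_card_alternatingGroup (α := Fin 6)
    rw [h720] at h1
    have h2 : 2 * Nat.card X = 720 := h1
    omega
  set Y := R.subgroupOf X with hY
  have hYi : Y.index ≤ 5 := by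
    refine le_trans ?_ hi5
    have h1 : R.relIndex X ≤ R.relIndex ⊤ :=
      relIndex_le_of_le_right le_top (by
        rw [relIndex_top_right]; exact R.index_ne_zero_of_finite)
    rwa [relIndex_top_right] at h1
  rcases hXs.eq_bot_or_eq_top_of_normal Y.normalCore inferInstance with h | h
  · have h1 : Y.normalCore.index ∣ Y.index.factorial := by
      rw [normalCore_eq_ker, index_ker, index_eq_card, ← Nat.card_perm]
      exact card_subgroup_dvd_card (MulAction.toPermHom X (X ⧸ Y)).range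
    have h2 : Y.normalCore.index ≤ 120 :=
      (Nat.le_of_dvd (Nat.factorial_pos _) h1).trans (Nat.factorial_le hYi)
    rw [h, index_bot, hXc] at h2
    omega
  · have h1 : Y = ⊤ := by
      rw [eq_top_iff, ← h]
      exact normalCore_le Y
    have h2 : X ≤ R := by rwa [hY, subgroupOf_eq_top] at h1
    have h3 : Group.IsSolvable X := Group.isSolvable_of_isSolvable_injective (f := Subgroup.inclusion h2) (Subgroup.inclusion_injective h2)
    have h4 : ∀ a b : X, a * b = b * a := IsSimpleGroup.comm_iff_isSolvable.mpr h3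
    let _ : CommGroup X := { (inferInstance : Group X) with mul_comm := h4 }
    have h5 := IsSimpleGroup.prime_card (α := X)
    rw [hXc] at h5
    norm_num at h5

/-- what we need about the group induced on `E / Z` -/
def Out (p n : ℕ) (S : Type*) [Group S] : Prop :=
  p ^ (2 * n) * Nat.card S ≤ HH (p ^ n) ∧
    (p ^ n = 4 → n = 2 → Nat.card S ∣ 720) ∧
    (n = 1 → ∃ f : S →* Matrix.symplecticGroup (Fin 1) (ZMod p), Function.Injective f)

theorem Out.congr {p n : ℕ} {S T : Type*} [Group S] [Group T] (e : S ≃* T) (h : Out p n S) :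
    Out p n T := by
  obtain ⟨h1, h2, h3⟩ := h
  rw [Nat.card_congr e.toEquiv] at h1 h2
  refine ⟨h1, h2, fun hn => ?_⟩
  obtain ⟨f, hf⟩ := h3 hn
  exact ⟨f.comp e.symm.toMonoidHom, hf.comp e.symm.injective⟩

/-- **Orders of solvable irreducible symplectic groups.** -/
theorem sr_bound {p : ℕ} [hp : Fact p.Prime] {W : Type u} [AddCommGroup W] [Module (ZMod p) W]
    [Finite W] {S : Type u} [Group S] [Finite S] [Group.IsSolvable S] (R : SR p W S)
    (hW : Nontrivial W) :
    ∃ n : ℕ, 1 ≤ n ∧ Nat.card W = p ^ (2 * n) ∧ Out p n S := by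
  obtain ⟨n, hn, f, hf⟩ := exists_embedding R.ρ R.inj R.B R.alt R.nd R.inv
  have h0 : 1 ≤ n := by
    by_contra h
    have h1 : n = 0 := by omega
    subst h1
    rw [← Finite.one_lt_card_iff_nontrivial, hn] at hW
    norm_num at hW
  have hp2 := hp.out.two_le
  refine ⟨n, h0, hn, ?_⟩
  have hSf : Nat.card S ≤ Nat.card (Matrix.symplecticGroup (Fin n) (ZMod p)) :=
    Nat.card_le_card_of_injective f hf
  have key : 5 ≤ p ^ n → Nat.card S ≤ 3 ^ (p ^ n - 1) → n ≠ 1 → p ^ n ≠ 4 → Out p n S := by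
    intro h5 h3 hn1 h4
    refine ⟨?_, fun h => absurd h h4, fun h => absurd h hn1⟩
    rw [HH_five_le h5]
    calc p ^ (2 * n) * Nat.card S ≤ (p ^ n) ^ 2 * 3 ^ (p ^ n - 1) := by
          rw [← pow_mul, mul_comm n 2]
          exact Nat.mul_le_mul_left _ h3
      _ ≤ _ := three_pow_le h5
  by_cases hgen : (n = 2 ∧ 5 ≤ p) ∨ (3 ≤ n ∧ 3 ≤ p) ∨ (6 ≤ n ∧ 2 ≤ p)
  · have h2 : 2 ≤ n := by omega
    have h5 : 5 ≤ p ^ n := by
      rcases hgen with ⟨h, h'⟩ | ⟨h, h'⟩ | ⟨h, h'⟩
      · exact h'.trans (Nat.le_self_pow (by omega) p)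
      · calc 5 ≤ 3 ^ 3 := by norm_num
          _ ≤ p ^ 3 := Nat.pow_le_pow_left h' 3
          _ ≤ p ^ n := Nat.pow_le_pow_right (by omega) h
      · calc 5 ≤ 2 ^ 6 := by norm_num
          _ ≤ p ^ 6 := Nat.pow_le_pow_left h' 6
          _ ≤ p ^ n := Nat.pow_le_pow_right (by omega) h
    exact key h5 (hSf.trans ((card_sp_le p n).trans (num_gen p n hgen))) (by omega) (by omega)
  by_cases h1 : n = 1
  · subst h1
    have hcard : Nat.card (Matrix.symplecticGroup (Fin 1) (ZMod p)) = p * (p ^ 2 - 1) := by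
      rw [LieClassical.SympCount.card_symplecticGroup, ZMod.card]
      simp
    rw [hcard] at hSf
    refine ⟨?_, fun _ h => by omega, fun _ => ⟨f, hf⟩⟩
    rw [pow_one]
    rcases Nat.lt_or_ge p 5 with h5 | h5
    · have h6 : p ≠ 4 := by
        rintro rfl
        exact absurd hp.out (by norm_num)
      have h7 : p = 2 ∨ p = 3 := by omega
      rcases h7 with rfl | rfl
      · norm_num [HH] at hSf ⊢
        omega
      · norm_num [HH] at hSf ⊢
        omega
    · rw [HH_five_le h5]
      calc p ^ (2 * 1) * Nat.card S ≤ p ^ (2 * 1) * (p * (p ^ 2 - 1)) := Nat.mul_le_mul_left _ hSf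
        _ ≤ p ^ (2 * 1) * (p * p ^ 2) :=
            Nat.mul_le_mul_left _ (Nat.mul_le_mul_left _ (Nat.sub_le _ _))
        _ = p ^ 5 := by ring
        _ ≤ _ := five_pow_le h5
  by_cases h2 : n = 2
  · subst h2
    have h4 : p = 2 ∨ p = 3 := by
      have h5 : p < 5 := by
        by_contra h
        exact hgen (Or.inl ⟨rfl, by omega⟩)
      have h6 : p ≠ 4 := by
        rintro rfl
        exact absurd hp.out (by norm_num)
      omega
    rcases h4 with rfl | rfl
    · obtain ⟨e⟩ := LieClassical.SpFourTwo.nonempty_equiv_perm (F := ZMod 2) (ZMod.card 2)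
      obtain ⟨h7, h8⟩ := perm_six (e.toMonoidHom.comp f) (e.injective.comp hf)
      refine ⟨?_, fun _ _ => h7, fun h => by omega⟩
      norm_num [HH]
      omega
    · exact key (by norm_num) ((card_le_sp43 f hf).trans (by norm_num)) (by norm_num) (by norm_num)
  have h3 : p = 2 := by
    by_contra h
    exact hgen (Or.inr (Or.inl ⟨by omega, by omega⟩))
  subst h3
  have h6 : n ≤ 5 := by
    by_contra h
    exact hgen (Or.inr (Or.inr ⟨by omega, le_rfl⟩))
  have h7 : n = 3 ∨ n = 4 ∨ n = 5 := by omega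
  rcases h7 with rfl | rfl | rfl
  · have h8 := R.three hn
    refine ⟨?_, fun h => by norm_num at h, fun h => by omega⟩
    norm_num [HH]
    omega
  · exact key (by norm_num) (R.four hn) (by norm_num) (by norm_num)
  · exact key (by norm_num) (R.five hn) (by norm_num) (by norm_num)

end Cfsg.Agent.H558.CP
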