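import Mathlib
import Cfsg.Agent.H553.Chief
import Cfsg.Agent.H558.CP.Symp

/-!
# Chief factors above the centre: the version with orders
(adapted from H553/CommForm and H553/Chief)
-/

set_option autoImplicit false

namespace Cfsg.Agent.H558.CP

open Module Subgroup Cfsg.Agent.H553.Sy Cfsg.Agent.H553.CF
open scoped commutatorElement

universe u

/-- A form of `SR.subB` for additive groups. -/
theorem add_bound {p : ℕ} [hp : Fact p.Prime] {W : Type u} [AddCommGroup W] [Module (ZMod p) W]
    [Finite W] [Nontrivial W] {S : Type u} [Group S] [Finite S] [Group.IsSolvable S]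
    (φ : S → (W →+ W)) (hφ1 : ∀ x, φ 1 x = x) (hφm : ∀ s t x, φ (s * t) x = φ s (φ t x))
    (hφ : ∀ s, (∀ x, φ s x = x) → s = 1)
    (hirr : ∀ K : AddSubgroup W, (∀ s, ∀ k ∈ K, φ s k ∈ K) → K = ⊥ ∨ K = ⊤)
    (c : W → W → ZMod p) (hl : ∀ x y z, c (x + y) z = c x z + c y z)
    (hr : ∀ x y z, c x (y + z) = c x y + c x z) (halt : ∀ x, c x x = 0)
    (hnd : ∀ x, (∀ y, c x y = 0) → x = 0) (hinv : ∀ s x y, c (φ s x) (φ s y) = c x y) :
    ∃ n : ℕ, 1 ≤ n ∧ Nat.card W = p ^ (2 * n) ∧ Out p n S := by
  let ρ : S →* Module.End (ZMod p) W :=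
    { toFun := fun s => AddMonoidHom.toZModLinearMap p (φ s)
      map_one' := by
        refine LinearMap.ext fun x => ?_
        rw [AddMonoidHom.coe_toZModLinearMap, hφ1, Module.End.one_apply]
      map_mul' := fun s t => by
        refine LinearMap.ext fun x => ?_
        rw [Module.End.mul_apply, AddMonoidHom.coe_toZModLinearMap,
          AddMonoidHom.coe_toZModLinearMap, AddMonoidHom.coe_toZModLinearMap, hφm] }
  have hρ : ∀ s x, ρ s x = φ s x := fun s x => by
    change AddMonoidHom.toZModLinearMap p (φ s) x = _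
    rw [AddMonoidHom.coe_toZModLinearMap]
  let c₁ : W → (W →ₗ[ZMod p] ZMod p) := fun x =>
    AddMonoidHom.toZModLinearMap p (AddMonoidHom.mk' (fun y : W => c x y) (fun y z => hr _ _ _))
  have hc₁ : ∀ x y, c₁ x y = c x y := fun x y => by
    change AddMonoidHom.toZModLinearMap p _ y = _
    rw [AddMonoidHom.coe_toZModLinearMap]
    rfl
  let B : LinearMap.BilinForm (ZMod p) W :=
    AddMonoidHom.toZModLinearMap p (AddMonoidHom.mk' c₁ (fun x y => by
      refine LinearMap.ext fun z => ?_
      rw [LinearMap.add_apply, hc₁, hc₁, hc₁]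
      exact hl _ _ _))
  have hB1 : ∀ x, B x = c₁ x := fun x => by
    change AddMonoidHom.toZModLinearMap p _ x = _
    rw [AddMonoidHom.coe_toZModLinearMap]
    rfl
  have hB : ∀ x y, B x y = c x y := fun x y => by
    rw [hB1]
    exact hc₁ x y
  let R : SR p W S :=
    { ρ := ρ
      inj := by
        rw [injective_iff_map_eq_one]
        intro s hs
        apply hφ
        intro x
        rw [← hρ, hs, Module.End.one_apply]
      B := B
      alt := fun v => by rw [hB]; exact halt v
      nd := fun v hv => hnd v (fun w => by rw [← hB]; exact hv w)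
      inv := fun s v w => by rw [hB, hB, hρ, hρ]; exact hinv s v w
      irr := fun U hU => by
        rcases hirr U.toAddSubgroup (fun s k hk => by rw [← hρ]; exact hU s _ hk) with h | h
        · left
          rw [Submodule.eq_bot_iff]
          intro x hx
          have h1 : x ∈ U.toAddSubgroup := hx
          rw [h] at h1
          exact h1
        · right
          rw [Submodule.eq_top_iff']
          intro x
          have h1 : x ∈ U.toAddSubgroup := by rw [h]; trivial
          exact h1 }
  exact sr_bound R inferInstance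

/-- A group theoretic form of `SR.subB`. -/
theorem abs_bound {M : Type u} [CommGroup M] [Finite M] [Nontrivial M] {p : ℕ} [hp : Fact p.Prime]
    (hexp : ∀ x : M, x ^ p = 1) {S : Type u} [Group S] [Finite S] [Group.IsSolvable S]
    (φ : S →* MulAut M) (hφ : Function.Injective φ)
    (hirr : ∀ K : Subgroup M, (∀ s, ∀ k ∈ K, φ s k ∈ K) → K = ⊥ ∨ K = ⊤)
    (c : M → M → ZMod p) (hl : ∀ x y z, c (x * y) z = c x z + c y z)
    (hr : ∀ x y z, c x (y * z) = c x y + c x z) (halt : ∀ x, c x x = 0)
    (hnd : ∀ x, (∀ y, c x y = 0) → x = 1) (hinv : ∀ s x y, c (φ s x) (φ s y) = c x y) :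
    ∃ n : ℕ, 1 ≤ n ∧ Nat.card M = p ^ (2 * n) ∧ Out p n S := by
  have hm : Module (ZMod p) (Additive M) :=
    AddCommGroup.zmodModule (fun x : Additive M => congrArg Additive.ofMul (hexp x.toMul))
  exact add_bound (W := Additive M)
    (fun s => MonoidHom.toAdditive (φ s).toMonoidHom)
    (fun x => by
      change Additive.ofMul (φ 1 x.toMul) = x
      rw [map_one]
      rfl)
    (fun s t x => by
      change Additive.ofMul (φ (s * t) x.toMul) = Additive.ofMul (φ s (φ t x.toMul))
      rw [map_mul]
      rfl)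
    (fun s h => by
      apply hφ
      rw [map_one]
      ext x
      exact congrArg Additive.toMul (h (Additive.ofMul x)))
    (fun K hK => by
      rcases hirr (AddSubgroup.toSubgroup' K) (fun s k hk => hK s _ hk) with h | h
      · left
        rw [eq_bot_iff]
        intro x hx
        have h1 : x.toMul ∈ AddSubgroup.toSubgroup' K := hx
        rw [h, Subgroup.mem_bot] at h1
        exact congrArg Additive.ofMul h1
      · right
        rw [eq_top_iff]
        intro x _
        have h1 : x.toMul ∈ AddSubgroup.toSubgroup' K := by rw [h]; trivial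
        exact h1)
    (fun x y => c x.toMul y.toMul) (fun x y z => hl _ _ _) (fun x y z => hr _ _ _)
    (fun x => halt _) (fun x h => congrArg Additive.ofMul (hnd x.toMul fun y => h (Additive.ofMul y)))
    (fun s x y => hinv s _ _)

variable {G : Type u} [Group G] [Finite G] [Group.IsSolvable G]

theorem chief (hcyc : IsCyclic (center G))
    (hab : ∀ A : Subgroup G, A.Normal → (∀ x ∈ A, ∀ y ∈ A, x * y = y * x) → A ≤ center G)
    (N : Subgroup G) (hN : N.Normal) (hZN : center G ≤ N) (hne : N ≠ center G)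
    (hmin : ∀ K : Subgroup G, K.Normal → center G ≤ K → K ≤ N → K = center G ∨ K = N) :
    ∃ p n : ℕ, p.Prime ∧ 1 ≤ n ∧ Nat.card N = p ^ (2 * n) * Nat.card (center G) ∧
      (∀ x ∈ N, ∀ y ∈ N, ⁅x, y⁆ ∈ center G) ∧
      (∀ x ∈ N, (∀ y ∈ N, x * y = y * x) → x ∈ center G) ∧
      ∀ _ : (D N).Normal, Out p n (G ⧸ D N) := by
  classical
  let π := QuotientGroup.mk' (center G)
  have hπ : Function.Surjective π := QuotientGroup.mk'_surjective _
  have hπk : ∀ g, π g = 1 ↔ g ∈ center G := fun g => QuotientGroup.eq_one_iff g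
  set M : Subgroup (G ⧸ center G) := N.map π with hM
  have hMn : M.Normal := hN.map π hπ
  have hcomapM : M.comap π = N := by
    rw [hM, Subgroup.comap_map_eq, QuotientGroup.ker_mk']
    exact sup_eq_left.mpr hZN
  have hM1 : M ≠ ⊥ := by
    intro h
    apply hne
    rw [← hcomapM, h]
    ext g
    rw [mem_comap, Subgroup.mem_bot, hπk]
  have hMmin : ∀ K : Subgroup (G ⧸ center G), K.Normal → K ≤ M → K = ⊥ ∨ K = M := by
    intro K hK hKM
    rcases hmin (K.comap π) (hK.comap π) (fun z hz => by
      rw [mem_comap, (hπk z).mpr hz]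
      exact one_mem _) (by rw [← hcomapM]; exact Subgroup.comap_mono hKM) with h | h
    · left
      rw [eq_bot_iff]
      intro x hx
      obtain ⟨g, rfl⟩ := hπ x
      rw [Subgroup.mem_bot, hπk, ← h]
      exact hx
    · right
      rw [hM, ← h, Subgroup.map_comap_eq_self_of_surjective hπ]
  obtain ⟨p, d, hp, hd, hMc, hexp⟩ :=
    SolvableStructure.MinimalNormal.exists_prime_of_minimal_normal M hM1 hMmin
  have hpf : Fact p.Prime := ⟨hp⟩
  obtain ⟨hcomm, -⟩ := S0043.result M hM1 hMmin
  let _ : CommGroup M := { (inferInstance : Group M) with mul_comm := hcomm.is_comm.comm }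
  -- facts on `N`
  have hNmem : ∀ x, x ∈ N ↔ π x ∈ M := by
    intro x
    rw [← mem_comap, hcomapM]
  have hNN : ∀ x ∈ N, ∀ y ∈ N, ⁅x, y⁆ ∈ center G := by
    intro x hx y hy
    rw [← hπk, map_commutatorElement, commutatorElement_eq_one_iff_mul_comm]
    exact congrArg Subtype.val
      (hcomm.is_comm.comm (⟨π x, (hNmem x).mp hx⟩ : M) ⟨π y, (hNmem y).mp hy⟩)
  have hNp : ∀ x ∈ N, x ^ p ∈ center G := by
    intro x hx
    rw [← hπk, map_pow]
    exact hexp _ ((hNmem x).mp hx)
  have hNNp : ∀ x ∈ N, ∀ y ∈ N, ⁅x, y⁆ ^ p = 1 := by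
    intro x hx y hy
    rw [← comm_pow_left (hNN x hx y hy), commutatorElement_eq_one_iff_mul_comm]
    exact (mem_center_iff.mp (hNp x hx) y).symm
  have hZNz : ∀ x ∈ N, (∀ y ∈ N, x * y = y * x) → x ∈ center G := by
    intro x hx hxy
    have h1 : (N ⊓ centralizer (N : Set G)).Normal := inferInstance
    refine hab (N ⊓ centralizer (N : Set G)) h1 ?_ ⟨hx, ?_⟩
    · intro a ha b hb
      exact (mem_centralizer_iff.mp ha.2 b hb.1).symm
    · exact mem_centralizer_iff.mpr (fun y hy => (hxy y hy).symm)
  obtain ⟨L, hL1, hL2⟩ := exists_L hcyc p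
  have hL0 : L 1 = 0 := by
    have := hL1 1 1 (one_mem _) (one_pow _) (one_mem _) (one_pow _)
    rw [mul_one] at this
    exact left_eq_add.mp this
  -- the form
  let rep : M → G := fun a => (a : G ⧸ center G).out
  have hrep : ∀ a : M, π (rep a) = a := fun a => QuotientGroup.out_eq' _
  have hrepN : ∀ a : M, rep a ∈ N := fun a => by
    rw [hNmem, hrep]
    exact a.2
  let c : M → M → ZMod p := fun a b => L ⁅rep a, rep b⁆
  have hwell : ∀ (a b : M) (x y : G), π x = a → π y = b → c a b = L ⁅x, y⁆ := by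
    intro a b x y hx hy
    have h1 : ∃ z ∈ center G, rep a = x * z := by
      refine ⟨x⁻¹ * rep a, ?_, by group⟩
      rw [← hπk, map_mul, map_inv, hrep, hx, inv_mul_cancel]
    have h2 : ∃ z ∈ center G, rep b = y * z := by
      refine ⟨y⁻¹ * rep b, ?_, by group⟩
      rw [← hπk, map_mul, map_inv, hrep, hy, inv_mul_cancel]
    obtain ⟨z, hz, h1⟩ := h1
    obtain ⟨w, hw, h2⟩ := h2
    change L ⁅rep a, rep b⁆ = _
    rw [h1, h2, comm_center_left hz, comm_center_right hw]
  let φ₀ : G →* MulAut M := (MulAut.conjNormal (H := M)).comp π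
  have hφ₀ : ∀ (g : G) (a : M), ((φ₀ g a : M) : G ⧸ center G) = π g * a * (π g)⁻¹ :=
    fun g a => MulAut.conjNormal_apply _ _
  have hker : φ₀.ker = D N := by
    ext g
    rw [mem_D, MonoidHom.mem_ker]
    constructor
    · intro h k hk
      have h1 := congrArg (fun α : MulAut M => ((α ⟨π k, (hNmem k).mp hk⟩ : M) : G ⧸ center G)) h
      have h2 : π g * π k * (π g)⁻¹ = π k := by
        rw [← hφ₀ g ⟨π k, (hNmem k).mp hk⟩]
        exact h1
      rw [← hπk, map_commutatorElement, commutatorElement_eq_one_iff_mul_comm]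
      calc π k * π g = (π g * π k * (π g)⁻¹) * π g := by rw [h2]
        _ = π g * π k := by group
    · intro h
      ext a
      rw [hφ₀, MulAut.one_apply]
      have h1 := h (rep a) (hrepN a)
      rw [← hπk, map_commutatorElement, commutatorElement_eq_one_iff_mul_comm, hrep] at h1
      rw [← h1]
      group
  have hMnt : Nontrivial M := (Subgroup.nontrivial_iff_ne_bot M).mpr hM1
  obtain ⟨n, hn, hMcard, hsub⟩ := abs_bound (M := M) (p := p) (S := G ⧸ φ₀.ker)
    (fun x => Subtype.ext (hexp x x.2)) (QuotientGroup.kerLift φ₀)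
    (QuotientGroup.kerLift_injective φ₀)
    (by
      intro K hK
      have hKn : (K.map M.subtype).Normal := by
        constructor
        rintro _ ⟨k, hk, rfl⟩ q
        obtain ⟨g, rfl⟩ := hπ q
        refine ⟨φ₀ g k, hK (QuotientGroup.mk g) k hk, ?_⟩
        exact hφ₀ g k
      rcases hMmin (K.map M.subtype) hKn (Subgroup.map_subtype_le K) with h | h
      · left
        exact (Subgroup.map_eq_bot_iff_of_injective K M.subtype_injective).mp h
      · right
        rw [eq_top_iff]
        intro x _
        have h1 : (x : G ⧸ center G) ∈ K.map M.subtype := by rw [h]; exact x.2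
        obtain ⟨y, hy, hyx⟩ := h1
        rwa [Subtype.ext hyx] at hy)
    c
    (by
      intro a b e
      rw [hwell (a * b) e (rep a * rep b) (rep e) (by rw [map_mul, hrep, hrep]; rfl) (hrep e),
        comm_mul_left (hNN _ (hrepN b) _ (hrepN e))]
      exact hL1 _ _ (hNN _ (hrepN a) _ (hrepN e)) (hNNp _ (hrepN a) _ (hrepN e))
        (hNN _ (hrepN b) _ (hrepN e)) (hNNp _ (hrepN b) _ (hrepN e)))
    (by
      intro a b e
      rw [hwell a (b * e) (rep a) (rep b * rep e) (hrep a) (by rw [map_mul, hrep, hrep]; rfl),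
        comm_mul_right (hNN _ (hrepN a) _ (hrepN e))]
      exact hL1 _ _ (hNN _ (hrepN a) _ (hrepN b)) (hNNp _ (hrepN a) _ (hrepN b))
        (hNN _ (hrepN a) _ (hrepN e)) (hNNp _ (hrepN a) _ (hrepN e)))
    (by
      intro a
      change L ⁅rep a, rep a⁆ = 0
      rw [commutatorElement_self, hL0])
    (by
      intro a ha
      have h1 : rep a ∈ center G := by
        refine hZNz _ (hrepN a) (fun y hy => ?_)
        have h2 := ha ⟨π y, (hNmem y).mp hy⟩
        rw [hwell a ⟨π y, (hNmem y).mp hy⟩ (rep a) y (hrep a) rfl] at h2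
        exact commutatorElement_eq_one_iff_mul_comm.mp
          (hL2 _ (hNN _ (hrepN a) _ hy) (hNNp _ (hrepN a) _ hy) h2)
      apply Subtype.ext
      rw [← hrep a, (hπk _).mpr h1]
      rfl)
    (by
      intro s a b
      obtain ⟨g, rfl⟩ := QuotientGroup.mk_surjective s
      change c (φ₀ g a) (φ₀ g b) = c a b
      rw [hwell (φ₀ g a) (φ₀ g b) (g * rep a * g⁻¹) (g * rep b * g⁻¹)
        (by rw [hφ₀, map_mul, map_mul, map_inv, hrep])
        (by rw [hφ₀, map_mul, map_mul, map_inv, hrep])]
      change _ = L ⁅rep a, rep b⁆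
      congr 1
      have h1 : g * ⁅rep a, rep b⁆ = ⁅rep a, rep b⁆ * g :=
        mem_center_iff.mp (hNN _ (hrepN a) _ (hrepN b)) g
      calc ⁅g * rep a * g⁻¹, g * rep b * g⁻¹⁆ = (g * ⁅rep a, rep b⁆) * g⁻¹ := by
            simp only [commutatorElement_def]; group
        _ = ⁅rep a, rep b⁆ := by rw [h1]; group)
  refine ⟨p, n, hp, hn, ?_, hNN, hZNz, ?_⟩
  · rw [← hMcard]
    have h1 := Subgroup.card_mul_index ((center G).subgroupOf N)
    rw [Nat.card_congr (Subgroup.subgroupOfEquivOfLe hZN).toEquiv] at h1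
    rw [← h1, mul_comm]
    congr 1
    have h2 : (π.comp N.subtype).ker = (center G).subgroupOf N := by
      ext x
      rw [MonoidHom.mem_ker, mem_subgroupOf]
      exact hπk x
    rw [← h2, Subgroup.index_ker, MonoidHom.range_comp, range_subtype]
  · intro hDn
    exact hsub.congr (QuotientGroup.quotientMulEquivOfEq hker)

end Cfsg.Agent.H558.CP
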