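import Mathlib
import Cfsg.Agent.H558.CP.QuasiC
import Cfsg.Agent.Lib.PGroupFixedVector

/-!
# The bound for irreducible solvable linear groups in characteristic `p`
-/

set_option autoImplicit false

namespace Cfsg.Agent.H558.CP

open Module Subgroup

universe u v w

variable {K : Type w} [Field K] {G : Type u} [Group G] {V : Type v} [AddCommGroup V] [Module K V]

/-- the fixed vectors of a subgroup -/
def fixS (ρ : Representation K G V) (P : Subgroup G) : Submodule K V where
  carrier := {v | ∀ g ∈ P, ρ g v = v}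
  add_mem' := fun {a b} ha hb g hg => by rw [map_add, ha g hg, hb g hg]
  zero_mem' := fun g _ => map_zero _
  smul_mem' := fun c a ha g hg => by rw [map_smul, ha g hg]

theorem fixS_inv (ρ : Representation K G V) (P : Subgroup G) (hP : P.Normal) (g : G) :
    ∀ v ∈ fixS ρ P, ρ g v ∈ fixS ρ P := by
  intro v hv x hx
  have h1 : ρ x (ρ g v) = ρ g (ρ (g⁻¹ * x * g) v) := by
    rw [← Module.End.mul_apply, ← Module.End.mul_apply, ← map_mul, ← map_mul]
    congr 2
    group
  rw [h1, hv _ (by simpa using hP.conj_mem x hx g⁻¹)]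

/-- `O_p(G) = 1`. -/
theorem pgroup_trivial [Finite G] {p : ℕ} [Fact p.Prime] [CharP K p] (ρ : Representation K G V)
    (hρ : Function.Injective ρ) (hirr : Irr ρ) (P : Subgroup G) (hP : P.Normal)
    (hPp : IsPGroup p P) : P = ⊥ := by
  have hnt := hirr.1
  obtain ⟨v, hv0, hv⟩ := Lib.PGroupFixedVector.exists_ne_zero_fixed_rep (K := K) (p := p) hPp
    (ρ.comp P.subtype : Representation K P V)
  rcases hirr.2 (fixS ρ P) (fixS_inv ρ P hP) with h | h
  · exfalso
    apply hv0
    have h1 : v ∈ fixS ρ P := fun g hg => hv ⟨g, hg⟩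
    rwa [h, Submodule.mem_bot] at h1
  · rw [eq_bot_iff]
    intro x hx
    rw [Subgroup.mem_bot]
    apply hρ
    rw [map_one]
    ext w
    have h1 : w ∈ fixS ρ P := by rw [h]; trivial
    exact h1 x hx

theorem ord_ne_zero [Finite G] {p : ℕ} [Fact p.Prime] [CharP K p] (ρ : Representation K G V)
    (hρ : Function.Injective ρ) (hirr : Irr ρ) (A : Subgroup G) (hA : A.Normal)
    (hc : ∀ a ∈ A, ∀ b ∈ A, a * b = b * a) : ∀ a ∈ A, (orderOf a : K) ≠ 0 := by
  have hp : p.Prime := Fact.out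
  intro a ha h0
  rw [CharP.cast_eq_zero_iff K p] at h0
  let P : Subgroup G :=
    { carrier := {x | x ∈ A ∧ x ^ p = 1}
      mul_mem' := by
        rintro x y ⟨hx, hx'⟩ ⟨hy, hy'⟩
        refine ⟨mul_mem hx hy, ?_⟩
        have h1 : Commute x y := hc x hx y hy
        rw [h1.mul_pow, hx', hy', one_mul]
      one_mem' := ⟨one_mem _, one_pow _⟩
      inv_mem' := by
        rintro x ⟨hx, hx'⟩
        refine ⟨inv_mem hx, ?_⟩
        rw [inv_pow, hx', inv_one] }
  have hPn : P.Normal := ⟨by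
    rintro x ⟨hx, hx'⟩ g
    refine ⟨hA.conj_mem x hx g, ?_⟩
    rw [conj_pow, hx', mul_one, mul_inv_cancel]⟩
  have hPp : IsPGroup p P := by
    intro x
    refine ⟨1, ?_⟩
    rw [pow_one]
    exact Subtype.ext x.2.2
  have hbot := pgroup_trivial ρ hρ hirr P hPn hPp
  obtain ⟨k, hk⟩ := h0
  have h1 : a ^ k ∈ P := ⟨pow_mem ha k, by rw [← pow_mul, mul_comm, ← hk, pow_orderOf_eq_one]⟩
  rw [hbot, Subgroup.mem_bot] at h1
  have h2 := orderOf_dvd_of_pow_eq_one h1
  rw [hk] at h2
  have h3 : 0 < orderOf a := orderOf_pos a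
  have h4 : 0 < k := by
    rcases Nat.eq_zero_or_pos k with h | h
    · rw [h, mul_zero] at hk
      omega
    · exact h
  have h5 := Nat.le_of_dvd h4 h2
  have h6 := hp.two_le
  nlinarith

/-- **The bound.** -/
theorem main_bd [IsAlgClosed K] (p : ℕ) [Fact p.Prime] [CharP K p] (n : ℕ) (hn : 1 ≤ n) :
    ∀ (G : Type u) [Group G] [Finite G] [Group.IsSolvable G] (V : Type v) [AddCommGroup V]
    [Module K V] [FiniteDimensional K V] (ρ : Representation K G V), Function.Injective ρ →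
    Irr ρ → finrank K V = n → CB G (BB n) ∧ (n = 2 → CB G (11 / 2) ∨
      (Nat.card G = 24 * Nat.card (center G) ∧
        4 * Nat.card (center G) ≤ Nat.card (ConjClasses G))) := by
  induction n using Nat.strong_induction_on with
  | _ n ih =>
  intro G _ _ _ V _ _ _ ρ hρ hirr hV
  subst hV
  have hnt := hirr.1
  by_cases h : ∀ A : Subgroup G, A.Normal → (∀ x ∈ A, ∀ y ∈ A, x * y = y * x) →
      ∀ a ∈ A, ∃ c : K, ∀ v, ρ a v = c • v
  · exact quasi ρ hρ h
  · push Not at h
    obtain ⟨A, hA, hAc, a, haA, ha⟩ := h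
    obtain ⟨h1, h2⟩ := step ρ hρ hirr A hA hAc (ord_ne_zero (p := p) ρ hρ hirr A hA hAc) (by
      intro hcon
      obtain ⟨c, hc⟩ := hcon a haA
      obtain ⟨v, hv⟩ := ha c
      exact hv (hc v)) (fun m hm hmlt => by
        intro G' _ _ _ V' _ _ _ ρ' hρ' hirr' hV'
        exact (ih m hmlt hm G' V' ρ' hρ' hirr' hV').1)
    exact ⟨h1, fun hn2 => Or.inl ((h2 hn2).mono (by norm_num))⟩

end Cfsg.Agent.H558.CP
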