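import Mathlib
import Cfsg.Agent.H553.Recur
import Cfsg.Agent.H558.CP.Chief

/-!
# The recursion: an `E` of symplectic type with `C_G(E) = Z(G)`, with orders
(adapted from H553/Recur)
-/

set_option autoImplicit false

namespace Cfsg.Agent.H558.CP

open Module Subgroup Cfsg.Agent.H553.Sy Cfsg.Agent.H553.CF
open scoped commutatorElement

universe u

variable {G : Type u} [Group G] [Finite G] [Group.IsSolvable G]

/-- The data produced by the recursion. -/
def TT (C : Subgroup G) : Prop :=
  ∃ E : Subgroup G, E.Normal ∧ center G ≤ E ∧ E ≤ C ∧ (∀ x ∈ E, ∀ y ∈ E, ⁅x, y⁆ ∈ center G) ∧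
    (∀ x ∈ C, (∀ y ∈ E, x * y = y * x) → x ∈ center G) ∧
    ∃ e : ℕ, 1 ≤ e ∧ Nat.card E = e ^ 2 * Nat.card (center G) ∧
      ∀ _ : (D E).Normal, e ^ 2 * Nat.card (G ⧸ D E) ≤ HH e ∧
        (e = 4 → Nat.card (G ⧸ D E) ≤ 90 ∨ Nat.card (G ⧸ D E) = 120) ∧
        (e.Prime → ∃ f : G ⧸ D E →* Matrix.symplecticGroup (Fin 1) (ZMod e),
          Function.Injective f)

theorem TT_all (hcyc : IsCyclic (center G))
    (hab : ∀ A : Subgroup G, A.Normal → (∀ x ∈ A, ∀ y ∈ A, x * y = y * x) → A ≤ center G) :
    ∀ (n : ℕ) (C : Subgroup G), Nat.card C = n → C.Normal → center G ≤ C → TT C := by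
  classical
  intro n
  induction n using Nat.strong_induction_on with
  | _ n ih =>
  intro C hCn hC hZC
  by_cases hCZ : C = center G
  · subst hCZ
    refine ⟨center G, inferInstance, le_rfl, le_rfl, ?_, fun x hx _ => hx, 1, le_rfl, by ring, ?_⟩
    · intro x hx y _
      rw [commutatorElement_eq_one_iff_mul_comm.mpr (mem_center_iff.mp hx y).symm]
      exact one_mem _
    · intro hDn
      have h1 : D (center G) = ⊤ := by
        rw [eq_top_iff]
        intro g _
        rw [mem_D]
        intro k hk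
        rw [commutatorElement_eq_one_iff_mul_comm.mpr (mem_center_iff.mp hk g).symm]
        exact one_mem _
      have h2 : Nat.card (G ⧸ D (center G)) = (D (center G)).index := rfl
      refine ⟨?_, fun h => by omega, fun h => absurd h (by norm_num)⟩
      rw [h2, h1, Subgroup.index_top]
      norm_num [HH]
  -- a minimal `N`
  obtain ⟨N, hNm⟩ := (Set.toFinite {N : Subgroup G | N.Normal ∧ center G ≤ N ∧ N ≤ C ∧
    N ≠ center G}).exists_minimal ⟨C, hC, hZC, le_rfl, hCZ⟩
  obtain ⟨hN, hZN, hNC, hNZ⟩ := hNm.prop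
  have hmin : ∀ K : Subgroup G, K.Normal → center G ≤ K → K ≤ N → K = center G ∨ K = N := by
    intro K hK hZK hKN
    by_cases h : K = center G
    · exact Or.inl h
    · exact Or.inr (le_antisymm hKN (hNm.le_of_le ⟨hK, hZK, hKN.trans hNC, h⟩ hKN))
  obtain ⟨p, m, hp, hm, hNcard, hNN, hZNz, hNsub⟩ := chief hcyc hab N hN hZN hNZ hmin
  set C' : Subgroup G := C ⊓ centralizer (N : Set G) with hC'
  have hC'n : C'.Normal := inferInstance
  have hZC' : center G ≤ C' := le_inf hZC (Subgroup.center_le_centralizer _)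
  have hlt : Nat.card C' < n := by
    rw [← hCn]
    have h1 : C' < C := by
      refine lt_of_le_of_ne inf_le_left (fun h => hNZ ?_)
      refine le_antisymm ?_ hZN
      intro x hx
      refine hZNz x hx (fun y hy => ?_)
      have h2 : x ∈ C' := by rw [h]; exact hNC hx
      exact (mem_centralizer_iff.mp h2.2 y hy).symm
    have h2 := Subgroup.card_le_of_le h1.le
    refine lt_of_le_of_ne h2 (fun h => ?_)
    exact h1.ne (Subgroup.eq_of_le_of_card_ge h1.le h.ge)
  obtain ⟨E', hE'n, hZE', hE'C, hE'E', hE'c, e', he', hE'card, hE'sub⟩ :=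
    ih _ hlt C' rfl hC'n hZC'
  have hcomm : ∀ x ∈ N, ∀ y ∈ E', x * y = y * x := fun x hx y hy =>
    mem_centralizer_iff.mp (hE'C hy).2 x hx
  have hEn : (N ⊔ E').Normal := inferInstance
  have hdec : ∀ x ∈ N ⊔ E', ∃ a ∈ N, ∃ b ∈ E', x = a * b := by
    intro x hx
    rw [Subgroup.mem_sup_of_normal_left] at hx
    obtain ⟨a, ha, b, hb, rfl⟩ := hx
    exact ⟨a, ha, b, hb, rfl⟩
  have hinf : N ⊓ E' = center G := by
    apply le_antisymm
    · intro x hx
      exact hZNz x hx.1 (fun y hy => (mem_centralizer_iff.mp (hE'C hx.2).2 y hy).symm)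
    · exact le_inf hZN hZE'
  refine ⟨N ⊔ E', hEn, hZN.trans le_sup_left, sup_le hNC (hE'C.trans inf_le_left), ?_, ?_,
    p ^ m * e', ?_, ?_, ?_⟩
  · intro x hx y hy
    obtain ⟨a, ha, b, hb, rfl⟩ := hdec x hx
    obtain ⟨c, hc, d, hd, rfl⟩ := hdec y hy
    have h1 : ⁅b, c * d⁆ = ⁅b, d⁆ := by
      have h2 : b * c = c * b := (hcomm c hc b hb).symm
      calc ⁅b, c * d⁆ = (b * c) * d * b⁻¹ * d⁻¹ * c⁻¹ := by
            simp only [commutatorElement_def]; group
        _ = c * ⁅b, d⁆ * c⁻¹ := by rw [h2]; simp only [commutatorElement_def]; group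
        _ = ⁅b, d⁆ := by
            rw [mem_center_iff.mp (hE'E' b hb d hd) c]
            group
    have h3 : ⁅a, c * d⁆ = ⁅a, c⁆ := by
      have h4 : a * d = d * a := hcomm a ha d hd
      calc ⁅a, c * d⁆ = a * c * (d * a⁻¹) * d⁻¹ * c⁻¹ := by
            simp only [commutatorElement_def]; group
        _ = a * c * (a⁻¹ * d) * d⁻¹ * c⁻¹ := by
            have h5 : d * a⁻¹ = a⁻¹ * d := by
              calc d * a⁻¹ = a⁻¹ * (a * d) * a⁻¹ := by group
                _ = a⁻¹ * (d * a) * a⁻¹ := by rw [h4]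
                _ = a⁻¹ * d := by group
            rw [h5]
        _ = ⁅a, c⁆ := by simp only [commutatorElement_def]; group
    rw [comm_mul_left (by rw [h1]; exact hE'E' b hb d hd), h1, h3]
    exact mul_mem (hNN a ha c hc) (hE'E' b hb d hd)
  · intro x hx hxy
    refine hE'c x ⟨hx, ?_⟩ (fun y hy => hxy y (le_sup_right (a := N) hy))
    exact mem_centralizer_iff.mpr (fun y hy => (hxy y (le_sup_left (b := E') hy)).symm)
  · exact Nat.one_le_iff_ne_zero.mpr (mul_ne_zero (pow_ne_zero _ hp.ne_zero) (by omega))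
  · have h1 := card_sup_mul_card_inf N E'
    rw [hinf, hNcard, hE'card] at h1
    have h2 : 0 < Nat.card (center G) := Nat.card_pos
    apply Nat.eq_of_mul_eq_mul_right h2
    rw [h1]
    ring
  · intro hDn
    have hDN := D_normal hN
    have hDE' := D_normal hE'n
    have h1 : D N ⊓ D E' ≤ D (N ⊔ E') := by
      rintro g hg
      have hg1 := mem_D.mp hg.1
      have hg2 := mem_D.mp hg.2
      rw [mem_D]
      intro k hk
      obtain ⟨a, ha, b, hb, rfl⟩ := hdec k hk
      rw [comm_mul_left (hg2 b hb)]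
      exact mul_mem (hg1 a ha) (hg2 b hb)
    obtain ⟨hN1, hN2, hN3⟩ := hNsub hDN
    obtain ⟨hE1, hE2, hE3⟩ := hE'sub hDE'
    have hcard : Nat.card (G ⧸ D (N ⊔ E')) ≤ Nat.card (G ⧸ D N) * Nat.card (G ⧸ D E') := by
      have h2 : (D N ⊓ D E').index ≤ (D N).index * (D E').index := Subgroup.index_inf_le
      have h3 : (D (N ⊔ E')).index ≤ (D N ⊓ D E').index :=
        Nat.le_of_dvd (Nat.pos_of_ne_zero Subgroup.index_ne_zero_of_finite)
          (Subgroup.index_dvd_of_le h1)
      exact h3.trans h2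
    have hpm : 1 ≤ p ^ m := Nat.one_le_pow _ _ hp.pos
    have hpm2 : 2 ≤ p ^ m := hp.two_le.trans (Nat.le_self_pow (by omega) p)
    -- if `e' = 1` then `E' = Z`
    have hone : e' = 1 → N ⊔ E' = N := by
      intro h
      rw [h, one_pow, one_mul] at hE'card
      have h2 : center G = E' := Subgroup.eq_of_le_of_card_ge hZE' hE'card.le
      rw [← h2]
      exact sup_eq_left.mpr hZN
    have heq : e' = 1 → Out p m (G ⧸ D (N ⊔ E')) := by
      intro h
      have h2 : D N = D (N ⊔ E') := by rw [hone h]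
      exact Out.congr (QuotientGroup.quotientMulEquivOfEq h2) ⟨hN1, hN2, hN3⟩
    refine ⟨?_, ?_, ?_⟩
    · calc (p ^ m * e') ^ 2 * Nat.card (G ⧸ D (N ⊔ E'))
          ≤ (p ^ m * e') ^ 2 * (Nat.card (G ⧸ D N) * Nat.card (G ⧸ D E')) :=
            Nat.mul_le_mul_left _ hcard
        _ = (p ^ (2 * m) * Nat.card (G ⧸ D N)) * (e' ^ 2 * Nat.card (G ⧸ D E')) := by ring
        _ ≤ HH (p ^ m) * HH e' := Nat.mul_le_mul hN1 hE1
        _ ≤ _ := HH_mul hpm he'
    · intro h4
      have h5 : p ^ m ∣ 4 := ⟨e', h4.symm⟩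
      have h6 : p ^ m ≤ 4 := Nat.le_of_dvd (by norm_num) h5
      have h7 : p ^ m = 2 ∨ p ^ m = 4 := by
        have h8 : p ^ m ≠ 3 := by
          intro h
          rw [h] at h5
          norm_num at h5
        omega
      rcases h7 with h7 | h7
      · left
        have h8 : e' = 2 := by rw [h7] at h4; omega
        rw [h7] at hN1
        rw [h8] at hE1
        have h9 : p ^ (2 * m) = 4 := by rw [mul_comm, pow_mul, h7]; norm_num
        rw [h9] at hN1
        simp only [HH] at hN1 hE1
        have h10 : Nat.card (G ⧸ D N) ≤ 6 := by omega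
        have h11 : Nat.card (G ⧸ D E') ≤ 6 := by omega
        have h12 := Nat.mul_le_mul h10 h11
        omega
      · have h8 : e' = 1 := by rw [h7] at h4; omega
        have h9 : p = 2 ∧ m = 2 := by
          have h10 : p = 2 := by
            have h11 : p ∣ 2 ^ 2 := by
              have : p ∣ p ^ m := dvd_pow_self p (by omega)
              rw [h7] at this
              exact this
            exact (Nat.prime_dvd_prime_iff_eq hp Nat.prime_two).mp (hp.dvd_of_dvd_pow h11)
          refine ⟨h10, ?_⟩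
          rw [h10] at h7
          exact Nat.pow_right_injective le_rfl (show 2 ^ m = 2 ^ 2 from h7)
        obtain ⟨h10, h11, -⟩ := heq h8
        have h12 := h11 h7 h9.2
        obtain ⟨h13, h14⟩ := h9
        rw [h13, h14] at h10
        norm_num [HH] at h10
        obtain ⟨c, hc⟩ := h12
        generalize Nat.card (G ⧸ D (N ⊔ E')) = s at *
        have h13 : s ≤ 120 := by omega
        by_contra hcon
        push Not at hcon
        have h14 : c ≤ 7 := by
          by_contra h
          push Not at h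
          nlinarith [hcon.1]
        interval_cases c <;> omega
    · intro hprime
      have h2 : p ^ m = 1 ∨ e' = 1 := by
        rcases Nat.prime_mul_iff.mp hprime with ⟨-, h⟩ | ⟨-, h⟩
        · exact Or.inr h
        · exact Or.inl h
      have h3 : e' = 1 := by omega
      have h4 : m = 1 := by
        rw [h3, mul_one] at hprime
        exact (Nat.Prime.eq_one_of_pow hprime)
      obtain ⟨-, -, h5⟩ := heq h3
      subst h4
      subst h3
      have h6 : p ^ 1 * 1 = p := by ring
      rw [h6]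
      exact h5 rfl

end Cfsg.Agent.H558.CP
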