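import Mathlib
import Cfsg.Agent.H558.CP.Recur
import Cfsg.Agent.H558.CP.Classes
import Cfsg.Agent.H558.CP.Impr
import Cfsg.Agent.H558.CP.Num

/-!
# Linear groups all of whose abelian normal subgroups are scalar: linear algebra
-/

set_option autoImplicit false

namespace Cfsg.Agent.H558.CP

open Module Subgroup Cfsg.Agent.H553.Sy Cfsg.Agent.H553.CF
open scoped commutatorElement

universe u v w

variable {K : Type w} [Field K] {G : Type u} [Group G] {V : Type v} [AddCommGroup V] [Module K V]

/-- the scalar by which a central element acts -/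
structure Scal (ρ : Representation K G V) where
  /-- the character of the center -/
  χ : center G →* K
  hχ : ∀ (z : center G) (v : V), ρ z v = χ z • v
  inj : Function.Injective χ

theorem exists_scal (ρ : Representation K G V) (hρ : Function.Injective ρ) [hV : Nontrivial V]
    (hsc : ∀ z ∈ center G, ∃ c : K, ∀ v, ρ z v = c • v) : Nonempty (Scal ρ) := by
  obtain ⟨v₀, hv₀⟩ := exists_ne (0 : V)
  choose! χ hχ using hsc
  let f : center G →* K :=
    { toFun := fun z => χ z
      map_one' := by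
        have h1 := hχ 1 (one_mem _) v₀
        rw [map_one, Module.End.one_apply] at h1
        have h2 : (χ 1 - 1) • v₀ = 0 := by rw [sub_smul, one_smul, ← h1, sub_self]
        have h3 := (smul_eq_zero.mp h2).resolve_right hv₀
        exact sub_eq_zero.mp h3
      map_mul' := fun z w => by
        have h1 := hχ (z * w) (mul_mem z.2 w.2) v₀
        rw [map_mul, Module.End.mul_apply, hχ w w.2, map_smul, hχ z z.2, smul_smul] at h1
        have h2 : (χ (z * w) - χ z * χ w) • v₀ = 0 := by
          rw [sub_smul, ← h1, mul_comm, sub_self]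
        exact sub_eq_zero.mp ((smul_eq_zero.mp h2).resolve_right hv₀) }
  refine ⟨⟨f, fun z v => hχ z z.2 v, ?_⟩⟩
  rw [injective_iff_map_eq_one]
  intro z hz
  apply Subtype.ext
  apply hρ
  rw [Subgroup.coe_one, map_one]
  ext v
  have h1 : χ z = 1 := hz
  rw [hχ z z.2, h1, one_smul]
  rfl

theorem Scal.cyclic {ρ : Representation K G V} [Finite G] (s : Scal ρ) : IsCyclic (center G) :=
  isCyclic_of_injective_ringHom s.χ s.inj

/-- `z ^ n = 1` for `z ∈ S_x`. -/
theorem Scal.pow_eq_one {ρ : Representation K G V} (s : Scal ρ) [FiniteDimensional K V]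
    {x : G} {z : center G} (hz : z ∈ Sx x) : z ^ (finrank K V) = 1 := by
  obtain ⟨g, hg⟩ := isConj_iff.mp (mem_Sx.mp hz)
  have h1 : LinearMap.det (ρ (g * x * g⁻¹)) = LinearMap.det (ρ x) := by
    have h2 : LinearMap.det (ρ g⁻¹) * LinearMap.det (ρ g) = 1 := by
      rw [← map_mul, ← map_mul, inv_mul_cancel, map_one, map_one]
    rw [map_mul, map_mul, map_mul, map_mul, mul_comm, ← mul_assoc, h2, one_mul]
  rw [hg, map_mul, map_mul] at h1
  have h2 : ρ (z : G) = s.χ z • (1 : Module.End K V) := by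
    ext v
    rw [s.hχ]
    rfl
  have h3 : LinearMap.det (ρ x) ≠ 0 := by
    intro h
    have h4 : LinearMap.det (ρ x * ρ x⁻¹) = 1 := by
      rw [← map_mul, mul_inv_cancel, map_one, map_one]
    rw [map_mul, h, zero_mul] at h4
    exact zero_ne_one h4
  have h4 : LinearMap.det (ρ (z : G)) = 1 := by
    have : LinearMap.det (ρ (z : G)) * LinearMap.det (ρ x) = 1 * LinearMap.det (ρ x) := by
      rw [h1, one_mul]
    exact mul_right_cancel₀ h3 this
  rw [h2, LinearMap.det_smul, map_one, mul_one] at h4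
  apply s.inj
  rw [map_pow, h4, map_one]

theorem Scal.card_Sx_le {ρ : Representation K G V} (s : Scal ρ) [FiniteDimensional K V] [Finite G]
    [Nontrivial V] (x : G) : Nat.card (Sx x) ≤ finrank K V := by
  classical
  have hcyc := s.cyclic
  have := Fintype.ofFinite (center G)
  have h1 := IsCyclic.card_pow_eq_one_le (α := center G) (n := finrank K V) Module.finrank_pos
  refine le_trans ?_ h1
  have h2 : Nat.card (Sx x) = (Finset.univ.filter (fun z : center G => z ∈ Sx x)).card := by
    rw [Nat.card_eq_fintype_card, Fintype.card_subtype]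
  rw [h2]
  refine Finset.card_le_card (fun z hz => ?_)
  rw [Finset.mem_filter] at hz ⊢
  exact ⟨hz.1, s.pow_eq_one hz.2⟩

/-- the character of `E` given by commutation with `g` -/
def lam {ρ : Representation K G V} (s : Scal ρ) (E : Subgroup G) (g : G)
    (hg : ∀ k ∈ E, ⁅k, g⁆ ∈ center G) : E →* K where
  toFun k := s.χ ⟨⁅(k : G), g⁆, hg k k.2⟩
  map_one' := by
    rw [← map_one s.χ]
    congr 1
    exact Subtype.ext (by simp)
  map_mul' k l := by
    rw [← map_mul]
    congr 1
    exact Subtype.ext (comm_mul_left (hg l l.2))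

theorem lam_center {ρ : Representation K G V} (s : Scal ρ) (E : Subgroup G) (g : G)
    (hg : ∀ k ∈ E, ⁅k, g⁆ ∈ center G) (k : E) (hk : (k : G) ∈ center G) : lam s E g hg k = 1 := by
  change s.χ ⟨⁅(k : G), g⁆, hg k k.2⟩ = 1
  rw [← map_one s.χ]
  congr 1
  apply Subtype.ext
  exact commutatorElement_eq_one_iff_mul_comm.mpr (mem_center_iff.mp hk g).symm

/-- distinct cosets give distinct characters -/
theorem lam_eq {ρ : Representation K G V} (s : Scal ρ) (E : Subgroup G)
    (hEc : ∀ x : G, (∀ y ∈ E, x * y = y * x) → x ∈ center G) (g h : G)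
    (hg : ∀ k ∈ E, ⁅k, g⁆ ∈ center G) (hh : ∀ k ∈ E, ⁅k, h⁆ ∈ center G)
    (hgh : lam s E g hg = lam s E h hh) : g⁻¹ * h ∈ center G := by
  apply hEc
  intro y hy
  have h1 := s.inj (DFunLike.congr_fun hgh ⟨y, hy⟩)
  have h2 : ⁅y, g⁆ = ⁅y, h⁆ := congrArg Subtype.val h1
  rw [commutatorElement_def, commutatorElement_def] at h2
  -- g y⁻¹ g⁻¹ = h y⁻¹ h⁻¹
  have h3 : g * y⁻¹ * g⁻¹ = h * y⁻¹ * h⁻¹ := by
    have : y * (g * y⁻¹ * g⁻¹) = y * (h * y⁻¹ * h⁻¹) := by
      simpa only [mul_assoc] using h2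
    exact mul_left_cancel this
  have h4 : g * y * g⁻¹ = h * y * h⁻¹ := by
    have := congrArg (fun a => a⁻¹) h3
    simpa [mul_assoc] using this
  calc g⁻¹ * h * y = g⁻¹ * (h * y * h⁻¹) * h := by group
    _ = g⁻¹ * (g * y * g⁻¹) * h := by rw [h4]
    _ = y * (g⁻¹ * h) := by group

/-- `|D(E)| ≤ |E|`, so `D(E) = E`. -/
theorem D_eq {ρ : Representation K G V} (s : Scal ρ) [Finite G] (E : Subgroup G)
    (hZE : center G ≤ E) (hEE : ∀ x ∈ E, ∀ y ∈ E, ⁅x, y⁆ ∈ center G)
    (hEc : ∀ x : G, (∀ y ∈ E, x * y = y * x) → x ∈ center G) : D E = E := by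
  classical
  have hED : E ≤ D E := by
    intro g hg
    rw [mem_D]
    exact fun k hk => hEE k hk g hg
  have hZD : center G ≤ D E := hZE.trans hED
  let Q := E ⧸ (center G).subgroupOf E
  have := Fintype.ofFinite Q
  have := Fintype.ofFinite (D E ⧸ (center G).subgroupOf (D E))
  let L : (D E ⧸ (center G).subgroupOf (D E)) → (Q →* K) := fun q =>
    QuotientGroup.lift _ (lam s E (q.out : D E) (mem_D.mp (q.out).2)) (by
      intro k hk
      exact lam_center s E _ _ k (mem_subgroupOf.mp hk))
  have hL : Function.Injective L := by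
    intro q q' hqq
    have h1 : lam s E (q.out : D E) (mem_D.mp (q.out).2) =
        lam s E (q'.out : D E) (mem_D.mp (q'.out).2) := by
      ext k
      exact DFunLike.congr_fun hqq (QuotientGroup.mk k)
    have h2 := lam_eq s E hEc _ _ _ _ h1
    rw [← QuotientGroup.out_eq' q, ← QuotientGroup.out_eq' q', QuotientGroup.eq, mem_subgroupOf]
    exact h2
  have h1 : LinearIndependent K (fun f : Q →* K => (f : Q → K)) := linearIndependent_monoidHom Q K
  have h2 := (h1.comp L hL).fintype_card_le_finrank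
  rw [Module.finrank_fintype_fun_eq_card] at h2
  rw [← Nat.card_eq_fintype_card, ← Nat.card_eq_fintype_card] at h2
  have h3 : Nat.card (center G) * Nat.card (D E ⧸ (center G).subgroupOf (D E)) = Nat.card (D E) :=
    card_mul_relIndex hZD
  have h4 : Nat.card (center G) * Nat.card Q = Nat.card E := card_mul_relIndex hZE
  refine (Subgroup.eq_of_le_of_card_ge hED ?_).symm
  rw [← h3, ← h4]
  exact Nat.mul_le_mul_left _ h2

/-- `|E : Z| ≤ (dim V)²`. -/
theorem e_le {ρ : Representation K G V} (s : Scal ρ) [Finite G] [FiniteDimensional K V]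
    [Nontrivial V] (E : Subgroup G) (hZE : center G ≤ E)
    (hEE : ∀ x ∈ E, ∀ y ∈ E, ⁅x, y⁆ ∈ center G)
    (hEc : ∀ x : G, (∀ y ∈ E, x * y = y * x) → x ∈ center G) (e : ℕ)
    (he : Nat.card E = e ^ 2 * Nat.card (center G)) : e ≤ finrank K V := by
  classical
  have hidx : Nat.card (E ⧸ (center G).subgroupOf E) = e ^ 2 := by
    have h1 := card_mul_relIndex hZE
    rw [he, mul_comm] at h1
    exact Nat.eq_of_mul_eq_mul_right Nat.card_pos h1
  have := Fintype.ofFinite (E ⧸ (center G).subgroupOf E)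
  let r : E ⧸ (center G).subgroupOf E → G := fun q => ((q.out : E) : G)
  have hr : ∀ q, r q ∈ E := fun q => (q.out).2
  have hrE : ∀ q, ∀ k ∈ E, ⁅k, r q⁆ ∈ center G := fun q k hk => hEE k hk _ (hr q)
  have hinj : Function.Injective (fun q => lam s E (r q) (hrE q)) := by
    intro q q' hqq
    have h2 := lam_eq s E hEc _ _ _ _ hqq
    rw [← QuotientGroup.out_eq' q, ← QuotientGroup.out_eq' q', QuotientGroup.eq, mem_subgroupOf]
    exact h2
  have hlin : LinearIndependent K (fun q => (lam s E (r q) (hrE q) : E → K)) :=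
    (linearIndependent_monoidHom E K).comp _ hinj
  have hconj : ∀ q (y : E), ρ (y : G) * ρ (r q) * ρ ((y : G)⁻¹) =
      lam s E (r q) (hrE q) y • ρ (r q) := by
    intro q y
    rw [← map_mul, ← map_mul]
    have h1 : (y : G) * r q * (y : G)⁻¹ = ⁅(y : G), r q⁆ * r q := by
      rw [commutatorElement_def]; group
    rw [h1, map_mul]
    ext v
    rw [Module.End.mul_apply]
    have := s.hχ ⟨⁅(y : G), r q⁆, hrE q y y.2⟩ (ρ (r q) v)
    exact this
  have hli : LinearIndependent K (fun q => (ρ (r q) : V →ₗ[K] V)) := by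
    rw [Fintype.linearIndependent_iff]
    intro c hc q₀
    -- some `v`, `φ` with `φ (ρ (r q₀) v) ≠ 0`
    obtain ⟨v₀, hv₀⟩ := exists_ne (0 : V)
    have hv : ρ (r q₀) (ρ ((r q₀)⁻¹) v₀) = v₀ := by
      rw [← Module.End.mul_apply, ← map_mul, mul_inv_cancel, map_one, Module.End.one_apply]
    have hφ' : ∃ φ : Module.Dual K V, φ v₀ ≠ 0 := by
      by_contra hcon
      push Not at hcon
      exact hv₀ ((Module.forall_dual_apply_eq_zero_iff K v₀).mp hcon)
    obtain ⟨φ, hφ⟩ := hφ'
    have hsum : ∑ q, (c q * φ (ρ (r q) (ρ ((r q₀)⁻¹) v₀))) •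
        (lam s E (r q) (hrE q) : E → K) = 0 := by
      funext y
      rw [Finset.sum_apply, Pi.zero_apply]
      have h1 : ∑ q, c q • (lam s E (r q) (hrE q) y • (ρ (r q) : V →ₗ[K] V)) = 0 := by
        have h2 : ∑ q, c q • (lam s E (r q) (hrE q) y • (ρ (r q) : V →ₗ[K] V)) =
            ρ (y : G) * (∑ q, c q • (ρ (r q) : V →ₗ[K] V)) * ρ ((y : G)⁻¹) := by
          rw [Finset.mul_sum, Finset.sum_mul]
          refine Finset.sum_congr rfl (fun q _ => ?_)
          rw [← hconj q y, mul_smul_comm, smul_mul_assoc]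
        rw [h2, hc, mul_zero, zero_mul]
      have h3 := congrArg (fun T : V →ₗ[K] V => φ (T (ρ ((r q₀)⁻¹) v₀))) h1
      simp only [LinearMap.sum_apply, map_sum, LinearMap.smul_apply, map_smul, smul_eq_mul,
        LinearMap.zero_apply, map_zero] at h3
      rw [← h3]
      refine Finset.sum_congr rfl (fun q _ => ?_)
      rw [Pi.smul_apply, smul_eq_mul]
      ring
    have h4 := Fintype.linearIndependent_iff.mp hlin _ hsum q₀
    rw [hv] at h4
    exact (mul_eq_zero.mp h4).resolve_right hφ
  have h5 := hli.fintype_card_le_finrank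
  rw [← Nat.card_eq_fintype_card, hidx, Module.finrank_linearMap] at h5
  by_contra hlt
  push Not at hlt
  have := Nat.mul_lt_mul'' hlt hlt
  rw [pow_two] at h5
  omega

end Cfsg.Agent.H558.CP
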